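import Mathlib

set_option autoImplicit false

/-!
Gauss decomposition with prescribed diagonal for non-scalar `3 × 3` matrices over a field, and the resulting
covering of `SL₃` by products of two conjugates of a regular diagonal element.
-/

namespace Cfsg.Agent.Lib.SLn.Gauss3

open Matrix

variable {F : Type*} [Field F]

/-- Step A: a non-scalar matrix is similar to one with first column `(0,1,0)`. -/
lemma exists_first_col (M : Matrix (Fin 3) (Fin 3) F) (hM : ¬ ∃ c, M = Matrix.scalar (Fin 3) c) :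
    ∃ Q N : Matrix (Fin 3) (Fin 3) F, Q.det ≠ 0 ∧ M * Q = Q * N ∧ N 0 0 = 0 ∧ N 1 0 = 1 ∧ N 2 0 = 0 := by
  classical
  have hex : ∃ v : Fin 3 → F, LinearIndependent F ![v, M *ᵥ v] := by
    by_contra hcon
    push Not at hcon
    obtain ⟨a, ha⟩ := LinearMap.exists_eq_smul_id_of_forall_notLinearIndependent (f := Matrix.mulVecLin M) (fun v => hcon v)
    apply hM
    refine ⟨a, ?_⟩
    ext i j
    have := congrArg (fun f => f (Pi.single j 1) i) ha
    simp only [Matrix.mulVecLin_apply, Matrix.mulVec_single_one, LinearMap.smul_apply, Module.End.one_apply,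
      Pi.smul_apply, Pi.single_apply, smul_eq_mul, mul_ite, mul_one, mul_zero] at this
    simp only [Matrix.col_apply] at this
    rw [this]
    simp [Matrix.scalar_apply, Matrix.diagonal_apply]
  obtain ⟨v, hv⟩ := hex
  set w := M *ᵥ v with hw
  -- a third vector
  have hspan : Submodule.span F (Set.range ![v, w]) ≠ ⊤ := by
    intro h
    have h1 : Module.finrank F (Submodule.span F (Set.range ![v, w])) ≤ 2 := by
      have := finrank_range_le_card (R := F) ![v, w]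
      unfold Set.finrank at this
      simpa only [Fintype.card_fin] using this
    rw [h, finrank_top, Module.finrank_fin_fun] at h1
    omega
  obtain ⟨z, -, hz⟩ := SetLike.exists_of_lt (lt_top_iff_ne_top.mpr hspan)
  have hli : LinearIndependent F ![v, w, z] := by
    have := (linearIndependent_finSnoc (K := F) (v := ![v, w]) (x := z)).mpr ⟨hv, hz⟩
    have e : ![v, w, z] = Fin.snoc ![v, w] z := by
      funext i
      fin_cases i <;> simp [Fin.snoc]
    rw [e]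
    exact this
  let Q : Matrix (Fin 3) (Fin 3) F := Matrix.of fun i j => ![v, w, z] j i
  have hQcol : Q.col = ![v, w, z] := by
    funext j i
    simp [Q, Matrix.col_apply]
  have hQu : IsUnit Q := by
    rw [← Matrix.linearIndependent_cols_iff_isUnit, hQcol]
    exact hli
  have hQdet : IsUnit Q.det := (Matrix.isUnit_iff_isUnit_det _).mp hQu
  refine ⟨Q, Q⁻¹ * M * Q, hQdet.ne_zero, ?_, ?_⟩
  · rw [← Matrix.mul_assoc, ← Matrix.mul_assoc, Matrix.mul_nonsing_inv _ hQdet, Matrix.one_mul]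
  -- first column
  have hcol0 : Q *ᵥ (Pi.single 0 1) = v := by
    rw [Matrix.mulVec_single_one, hQcol]; rfl
  have hcol1 : Q *ᵥ (Pi.single 1 1) = w := by
    rw [Matrix.mulVec_single_one, hQcol]; rfl
  have hN : (Q⁻¹ * M * Q) *ᵥ (Pi.single 0 1) = Pi.single 1 1 := by
    rw [← Matrix.mulVec_mulVec, hcol0, ← Matrix.mulVec_mulVec, ← hw, ← hcol1, Matrix.mulVec_mulVec,
      Matrix.nonsing_inv_mul _ hQdet, Matrix.one_mulVec]
  rw [Matrix.mulVec_single_one] at hN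
  have h0 := congrFun hN 0
  have h1 := congrFun hN 1
  have h2 := congrFun hN 2
  simp only [Matrix.col_apply] at h0 h1 h2
  refine ⟨?_, ?_, ?_⟩
  · rw [h0]; simp
  · rw [h1]; simp
  · rw [h2]; simp

/-- general lemma on explicit inverses -/
lemma conj_of_mul_eq_one {Q Qi N : Matrix (Fin 3) (Fin 3) F} (h : Q * Qi = 1) :
    Q.det ≠ 0 ∧ N * Q = Q * (Qi * N * Q) := by
  constructor
  · intro h0
    have := congrArg Matrix.det h
    rw [Matrix.det_mul, h0, zero_mul, Matrix.det_one] at this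
    exact zero_ne_one this
  · rw [← Matrix.mul_assoc, ← Matrix.mul_assoc, h, Matrix.one_mul]

/-- Step B, generic case -/
lemma minors_of_ne (N : Matrix (Fin 3) (Fin 3) F) (h0 : N 0 0 = 0) (h1 : N 1 0 = 1) (h2 : N 2 0 = 0)
    (hh : N 2 1 ≠ 0) (α β : F) :
    ∃ Q M' : Matrix (Fin 3) (Fin 3) F, Q.det ≠ 0 ∧ N * Q = Q * M' ∧ M' 0 0 = α ∧
      M' 0 0 * M' 1 1 - M' 0 1 * M' 1 0 = β := by
  set lam := (β + N 0 1) / N 2 1 with hlam
  let Q : Matrix (Fin 3) (Fin 3) F := !![1, -α, lam; 0, 1, 0; 0, 0, 1]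
  let Qi : Matrix (Fin 3) (Fin 3) F := !![1, α, -lam; 0, 1, 0; 0, 0, 1]
  have hQ : Q * Qi = 1 := by
    ext i j
    fin_cases i <;> fin_cases j <;> simp [Q, Qi, Matrix.mul_apply, Fin.sum_univ_three]
  obtain ⟨hdet, hconj⟩ := conj_of_mul_eq_one (N := N) hQ
  refine ⟨Q, Qi * N * Q, hdet, hconj, ?_, ?_⟩
  · simp [Q, Qi, Matrix.mul_apply, Fin.sum_univ_three, Matrix.vecMul, dotProduct, h0, h1, h2]
  · have e : lam * N 2 1 = β + N 0 1 := by
      rw [hlam]; field_simp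
    simp [Q, Qi, Matrix.mul_apply, Fin.sum_univ_three, Matrix.vecMul, dotProduct, h0, h1, h2]
    linear_combination e

/-- Step B, degenerate case with `c ≠ 0` -/
lemma minors_of_eq_of_ne (N : Matrix (Fin 3) (Fin 3) F) (h0 : N 0 0 = 0) (h1 : N 1 0 = 1) (h2 : N 2 0 = 0)
    (hh : N 2 1 = 0) (hc : N 0 2 ≠ 0) (α β : F) :
    ∃ Q M' : Matrix (Fin 3) (Fin 3) F, Q.det ≠ 0 ∧ N * Q = Q * M' ∧ M' 0 0 = α ∧
      M' 0 0 * M' 1 1 - M' 0 1 * M' 1 0 = β := by
  set κ := (α * N 2 2 - β) / N 0 2 with hκ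
  let Q : Matrix (Fin 3) (Fin 3) F := !![1, 0, -α; 0, 0, 1; 0, 1, -κ]
  let Qi : Matrix (Fin 3) (Fin 3) F := !![1, α, 0; 0, κ, 1; 0, 1, 0]
  have hQ : Q * Qi = 1 := by
    ext i j
    fin_cases i <;> fin_cases j <;> simp [Q, Qi, Matrix.mul_apply, Fin.sum_univ_three]
  obtain ⟨hdet, hconj⟩ := conj_of_mul_eq_one (N := N) hQ
  refine ⟨Q, Qi * N * Q, hdet, hconj, ?_, ?_⟩
  · simp [Q, Qi, Matrix.mul_apply, Fin.sum_univ_three, Matrix.vecMul, dotProduct, h0, h1, h2]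
  · have e : κ * N 0 2 = α * N 2 2 - β := by
      rw [hκ]; field_simp
    simp [Q, Qi, Matrix.mul_apply, Fin.sum_univ_three, Matrix.vecMul, dotProduct, h0, h1, h2, hh]
    linear_combination (-1 : F) * e

/-- Step B -/
lemma exists_minors (N : Matrix (Fin 3) (Fin 3) F) (hdet : N.det ≠ 0) (h0 : N 0 0 = 0) (h1 : N 1 0 = 1)
    (h2 : N 2 0 = 0) (α β : F) :
    ∃ Q M' : Matrix (Fin 3) (Fin 3) F, Q.det ≠ 0 ∧ N * Q = Q * M' ∧ M' 0 0 = α ∧
      M' 0 0 * M' 1 1 - M' 0 1 * M' 1 0 = β := by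
  by_cases hh : N 2 1 = 0
  · by_cases hc : N 0 2 = 0
    · -- change basis so that the corner does not vanish
      have hi : N 2 2 ≠ 0 := by
        intro hi
        apply hdet
        rw [Matrix.det_fin_three, h0, h1, h2, hh, hc, hi]
        ring
      let R : Matrix (Fin 3) (Fin 3) F := !![1, 0, 1; 0, 1, 0; 0, 0, 1]
      let Ri : Matrix (Fin 3) (Fin 3) F := !![1, 0, -1; 0, 1, 0; 0, 0, 1]
      have hR : R * Ri = 1 := by
        ext i j
        fin_cases i <;> fin_cases j <;> simp [R, Ri, Matrix.mul_apply, Fin.sum_univ_three]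
      obtain ⟨hdetR, hconjR⟩ := conj_of_mul_eq_one (N := N) hR
      obtain ⟨Q, M', hQ, hc', h3, h4⟩ := minors_of_eq_of_ne (Ri * N * R)
        (by simp [R, Ri, Matrix.mul_apply, Fin.sum_univ_three, Matrix.vecMul, dotProduct, h0, h1, h2])
        (by simp [R, Ri, Matrix.mul_apply, Fin.sum_univ_three, Matrix.vecMul, dotProduct, h0, h1, h2])
        (by simp [R, Ri, Matrix.mul_apply, Fin.sum_univ_three, Matrix.vecMul, dotProduct, h0, h1, h2])
        (by simp [R, Ri, Matrix.mul_apply, Fin.sum_univ_three, Matrix.vecMul, dotProduct, h0, h1, h2, hh])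
        (by simp [R, Ri, Matrix.mul_apply, Fin.sum_univ_three, Matrix.vecMul, dotProduct, h0, h1, h2, hc, hi]) α β
      refine ⟨R * Q, M', ?_, ?_, h3, h4⟩
      · rw [Matrix.det_mul]
        exact mul_ne_zero hdetR hQ
      · rw [← Matrix.mul_assoc, hconjR, Matrix.mul_assoc, hc', Matrix.mul_assoc]
    · exact minors_of_eq_of_ne N h0 h1 h2 hh hc α β
  · exact minors_of_ne N h0 h1 h2 hh α β

/-- a non-scalar invertible matrix is similar to one with prescribed leading minors -/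
theorem exists_similar_minors (M : Matrix (Fin 3) (Fin 3) F) (hdet : M.det ≠ 0)
    (hM : ¬ ∃ c, M = Matrix.scalar (Fin 3) c) (α β : F) :
    ∃ Q M' : Matrix (Fin 3) (Fin 3) F, Q.det ≠ 0 ∧ M * Q = Q * M' ∧ M' 0 0 = α ∧
      M' 0 0 * M' 1 1 - M' 0 1 * M' 1 0 = β := by
  obtain ⟨Q₁, N, hQ₁, h1, h00, h10, h20⟩ := exists_first_col M hM
  have hNdet : N.det ≠ 0 := by
    have := congrArg Matrix.det h1
    rw [Matrix.det_mul, Matrix.det_mul] at this
    intro h0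
    rw [h0, mul_zero] at this
    exact (mul_ne_zero hdet hQ₁) this
  obtain ⟨Q₂, M', hQ₂, h2, h3, h4⟩ := exists_minors N hNdet h00 h10 h20 α β
  refine ⟨Q₁ * Q₂, M', ?_, ?_, h3, h4⟩
  · rw [Matrix.det_mul]
    exact mul_ne_zero hQ₁ hQ₂
  · rw [← Matrix.mul_assoc, h1, Matrix.mul_assoc, h2, Matrix.mul_assoc]

/-- LU decomposition with diagonals `(1, ζ, ζ⁻¹)` and `(ζ, ζ⁻¹, 1)` -/
lemma exists_LU (M : Matrix (Fin 3) (Fin 3) F) (ζ : F) (hζ : ζ ≠ 0) (hdet : M.det = 1) (h0 : M 0 0 = ζ)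
    (h1 : M 0 0 * M 1 1 - M 0 1 * M 1 0 = ζ) :
    ∃ l₁ l₂ l₃ u₁ u₂ u₃ : F, M = !![1, 0, 0; l₁, ζ, 0; l₂, l₃, ζ⁻¹] * !![ζ, u₁, u₂; 0, ζ⁻¹, u₃; 0, 0, 1] := by
  have h1' : ζ * M 1 1 - M 0 1 * M 1 0 = ζ := by rw [h0] at h1; exact h1
  rw [Matrix.det_fin_three, h0] at hdet
  have hE : ζ * ζ * M 2 2 = ζ * M 2 0 * M 0 2 + (ζ * M 2 1 - M 2 0 * M 0 1) * (ζ * M 1 2 - M 1 0 * M 0 2) + ζ := by
    linear_combination ζ * hdet + (M 2 0 * M 0 2 - ζ * M 2 2) * h1'
  refine ⟨M 1 0 / ζ, M 2 0 / ζ, (M 2 1 - M 2 0 / ζ * M 0 1) * ζ, M 0 1, M 0 2, (M 1 2 - M 1 0 / ζ * M 0 2) / ζ, ?_⟩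
  ext i j
  fin_cases i <;> fin_cases j <;> simp [Matrix.mul_apply, Fin.sum_univ_three, h0]
  all_goals first
    | (field_simp; done)
    | (field_simp; ring1)
    | (field_simp; linear_combination h1')
    | (field_simp; linear_combination hE)

/-- a lower triangular matrix with distinct diagonal entries is diagonalisable -/
lemma conj_lower (a b c x y z : F) (hab : a ≠ b) (hac : a ≠ c) (hbc : b ≠ c) :
    ∃ T : Matrix (Fin 3) (Fin 3) F, T.det ≠ 0 ∧
      !![a, 0, 0; x, b, 0; y, z, c] * T = T * Matrix.diagonal ![a, b, c] := by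
  have h1 : a - b ≠ 0 := sub_ne_zero.mpr hab
  have h2 : a - c ≠ 0 := sub_ne_zero.mpr hac
  have h3 : b - c ≠ 0 := sub_ne_zero.mpr hbc
  refine ⟨!![1, 0, 0; x / (a - b), 1, 0; (y + z * (x / (a - b))) / (a - c), z / (b - c), 1], ?_, ?_⟩
  · rw [Matrix.det_fin_three]; simp
  · ext i j
    fin_cases i <;> fin_cases j <;> simp [Matrix.mul_apply, Fin.sum_univ_three, Matrix.diagonal_apply]
    all_goals first | ring1 | (field_simp; done) | (field_simp; ring1)

/-- an upper triangular matrix with distinct diagonal entries is diagonalisable -/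
lemma conj_upper (a b c x y z : F) (hab : a ≠ b) (hac : a ≠ c) (hbc : b ≠ c) :
    ∃ T : Matrix (Fin 3) (Fin 3) F, T.det ≠ 0 ∧
      !![a, x, y; 0, b, z; 0, 0, c] * T = T * Matrix.diagonal ![a, b, c] := by
  have h1 : b - a ≠ 0 := sub_ne_zero.mpr hab.symm
  have h2 : c - a ≠ 0 := sub_ne_zero.mpr hac.symm
  have h3 : c - b ≠ 0 := sub_ne_zero.mpr hbc.symm
  refine ⟨!![1, x / (b - a), (x * (z / (c - b)) + y) / (c - a); 0, 1, z / (c - b); 0, 0, 1], ?_, ?_⟩
  · rw [Matrix.det_fin_three]; simp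
  · ext i j
    fin_cases i <;> fin_cases j <;> simp [Matrix.mul_apply, Fin.sum_univ_three, Matrix.diagonal_apply]
    all_goals first | ring1 | (field_simp; done) | (field_simp; ring1)

/-- from `A W = W D` with `W` invertible to an element of `SL₃`, for `D` diagonal -/
lemma exists_sl_conj (A W : Matrix (Fin 3) (Fin 3) F) (d : Fin 3 → F) (hW : W.det ≠ 0)
    (h : A * W = W * Matrix.diagonal d) :
    ∃ U : Matrix.SpecialLinearGroup (Fin 3) F, A * (U : Matrix (Fin 3) (Fin 3) F) =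
      (U : Matrix (Fin 3) (Fin 3) F) * Matrix.diagonal d := by
  let E : Matrix (Fin 3) (Fin 3) F := Matrix.diagonal ![W.det⁻¹, 1, 1]
  have hE : E.det = W.det⁻¹ := by
    simp [E, Matrix.det_diagonal, Fin.prod_univ_three]
  refine ⟨⟨W * E, by rw [Matrix.det_mul, hE]; exact mul_inv_cancel₀ hW⟩, ?_⟩
  show A * (W * E) = (W * E) * Matrix.diagonal d
  rw [← Matrix.mul_assoc, h, Matrix.mul_assoc, Matrix.mul_assoc]
  congr 1
  simp only [E, Matrix.diagonal_mul_diagonal]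
  congr 1
  funext i
  exact mul_comm _ _

/-- the regular diagonal element -/
def hh (ζ : F) (hζ : ζ ≠ 0) : Matrix.SpecialLinearGroup (Fin 3) F :=
  ⟨Matrix.diagonal ![1, ζ, ζ⁻¹], by simp [Matrix.det_diagonal, Fin.prod_univ_three, hζ]⟩

/-- Every non-scalar element of `SL₃` is a product of two conjugates of `diag(1, ζ, ζ⁻¹)` if `ζ² ≠ 1`. -/
theorem exists_prod_conj (ζ : F) (hζ0 : ζ ≠ 0) (hζ : ζ ^ 2 ≠ 1) (X : Matrix.SpecialLinearGroup (Fin 3) F)
    (hX : ¬ ∃ c, (X : Matrix (Fin 3) (Fin 3) F) = Matrix.scalar (Fin 3) c) :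
    ∃ U V : Matrix.SpecialLinearGroup (Fin 3) F, X = U * hh ζ hζ0 * U⁻¹ * (V * hh ζ hζ0 * V⁻¹) := by
  have h1ζ : (1 : F) ≠ ζ := by
    rintro rfl
    simp at hζ
  have h1ζi : (1 : F) ≠ ζ⁻¹ := by
    intro h
    apply h1ζ
    field_simp at h
    exact h.symm
  have hζζi : ζ ≠ ζ⁻¹ := by
    intro h
    apply hζ
    field_simp at h
    exact h
  obtain ⟨Q, M', hQ, hconj, h0, h1⟩ := exists_similar_minors (X : Matrix (Fin 3) (Fin 3) F)
    (by rw [X.2]; exact one_ne_zero) hX ζ ζ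
  have hM'det : M'.det = 1 := by
    have := congrArg Matrix.det hconj
    rw [Matrix.det_mul, Matrix.det_mul, X.2, one_mul] at this
    exact (mul_left_cancel₀ hQ (by rw [← this, mul_one])).symm
  obtain ⟨l₁, l₂, l₃, u₁, u₂, u₃, hLU⟩ := exists_LU M' ζ hζ0 hM'det h0 h1
  obtain ⟨T₁, hT₁, hT₁c⟩ := conj_lower 1 ζ ζ⁻¹ l₁ l₂ l₃ h1ζ h1ζi hζζi
  obtain ⟨T₂, hT₂, hT₂c⟩ := conj_upper ζ ζ⁻¹ 1 u₁ u₂ u₃ hζζi h1ζ.symm h1ζi.symm
  set L : Matrix (Fin 3) (Fin 3) F := !![1, 0, 0; l₁, ζ, 0; l₂, l₃, ζ⁻¹] with hL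
  set Up : Matrix (Fin 3) (Fin 3) F := !![ζ, u₁, u₂; 0, ζ⁻¹, u₃; 0, 0, 1] with hUp
  -- the cyclic permutation matrix
  let P : Matrix (Fin 3) (Fin 3) F := !![0, 1, 0; 0, 0, 1; 1, 0, 0]
  have hPdet : P.det = 1 := by
    rw [Matrix.det_fin_three]; simp [P]
  have hP : Matrix.diagonal ![ζ, ζ⁻¹, 1] * P = P * Matrix.diagonal ![1, ζ, ζ⁻¹] := by
    ext i j
    fin_cases i <;> fin_cases j <;> simp [P, Matrix.mul_apply, Fin.sum_univ_three, Matrix.diagonal_apply]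
  have hQu : IsUnit Q.det := isUnit_iff_ne_zero.mpr hQ
  let A : Matrix (Fin 3) (Fin 3) F := Q * L * Q⁻¹
  let B : Matrix (Fin 3) (Fin 3) F := Q * Up * Q⁻¹
  have hX' : (X : Matrix (Fin 3) (Fin 3) F) = A * B := by
    have e1 : (X : Matrix (Fin 3) (Fin 3) F) = Q * M' * Q⁻¹ := by
      rw [← hconj, Matrix.mul_assoc, Matrix.mul_nonsing_inv _ hQu, Matrix.mul_one]
    rw [e1, hLU]
    simp only [A, B, Matrix.mul_assoc]
    rw [Matrix.nonsing_inv_mul_cancel_left _ _ hQu]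
  have hA : A * (Q * T₁) = (Q * T₁) * Matrix.diagonal ![1, ζ, ζ⁻¹] := by
    simp only [A, Matrix.mul_assoc]
    rw [Matrix.nonsing_inv_mul_cancel_left _ _ hQu, hT₁c]
  have hB : B * (Q * (T₂ * P)) = (Q * (T₂ * P)) * Matrix.diagonal ![1, ζ, ζ⁻¹] := by
    simp only [B, Matrix.mul_assoc]
    rw [Matrix.nonsing_inv_mul_cancel_left _ _ hQu, ← Matrix.mul_assoc Up, hT₂c, Matrix.mul_assoc T₂, hP]
  obtain ⟨U, hU⟩ := exists_sl_conj A (Q * T₁) _ (by rw [Matrix.det_mul]; exact mul_ne_zero hQ hT₁) hA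
  obtain ⟨V, hV⟩ := exists_sl_conj B (Q * (T₂ * P)) _
    (by rw [Matrix.det_mul, Matrix.det_mul, hPdet, mul_one]; exact mul_ne_zero hQ hT₂) hB
  refine ⟨U, V, ?_⟩
  have key : ∀ (W : Matrix.SpecialLinearGroup (Fin 3) F) (C : Matrix (Fin 3) (Fin 3) F),
      C * (W : Matrix (Fin 3) (Fin 3) F) = (W : Matrix (Fin 3) (Fin 3) F) * Matrix.diagonal ![1, ζ, ζ⁻¹] →
      ((W * hh ζ hζ0 * W⁻¹ : Matrix.SpecialLinearGroup (Fin 3) F) : Matrix (Fin 3) (Fin 3) F) = C := by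
    intro W C hC
    rw [Matrix.SpecialLinearGroup.coe_mul, Matrix.SpecialLinearGroup.coe_mul]
    show (W : Matrix (Fin 3) (Fin 3) F) * Matrix.diagonal ![1, ζ, ζ⁻¹] * _ = C
    rw [← hC, Matrix.mul_assoc, ← Matrix.SpecialLinearGroup.coe_mul, mul_inv_cancel]
    simp
  apply Subtype.ext
  rw [Matrix.SpecialLinearGroup.coe_mul, key U A hU, key V B hV, hX']

end Cfsg.Agent.Lib.SLn.Gauss3
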